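import Cfsg.Agent.Lib.Helper97.KLin

/-!
# The case `q = 2`, `r = 2`, `n = 4` of the extension-field normaliser (helper98, for S5886)

A subgroup `M` of `GL_4(2)` containing the `K`-linear maps (`K` a field subalgebra of degree two,
so `K = F_4`) and an element `h` fixing `u` but not the `K`-line through `u` contains an
`F`-transvection: an explicit word in `K`-linear elements and a conjugate of a `K`-transvection is
a transvection.
-/

set_option autoImplicit false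

namespace Cfsg.Agent.Lib.Helper98

open Matrix Cfsg.Agent.Lib.Helper97

section

variable {F : Type*} [Field F]

/-- The vector with coordinates `a b c d` with respect to four vectors. -/
def k222cv (u0 u1 u2 u3 : Fin 4 → F) (a b c d : F) : Fin 4 → F :=
  a • u0 + b • u1 + c • u2 + d • u3

lemma k222cv_def (u0 u1 u2 u3 : Fin 4 → F) (a b c d : F) :
    k222cv u0 u1 u2 u3 a b c d = a • u0 + b • u1 + c • u2 + d • u3 := rfl

lemma k222cv_congr (u0 u1 u2 u3 : Fin 4 → F) {a b c d a' b' c' d' : F} (ha : a = a')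
    (hb : b = b') (hc : c = c') (hd : d = d') :
    k222cv u0 u1 u2 u3 a b c d = k222cv u0 u1 u2 u3 a' b' c' d' := by
  rw [ha, hb, hc, hd]

lemma k222_zero_or_one [Fintype F] (hq : Fintype.card F = 2) (x : F) : x = 0 ∨ x = 1 := by
  classical
  by_contra hx
  push Not at hx
  have h3 : ({0, 1, x} : Finset F).card = 3 := by
    rw [Finset.card_insert_of_notMem, Finset.card_insert_of_notMem, Finset.card_singleton]
    · rw [Finset.mem_singleton]
      exact hx.2.symm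
    · rw [Finset.mem_insert, Finset.mem_singleton]
      push Not
      exact ⟨zero_ne_one, hx.1.symm⟩
  have h4 := Finset.card_le_univ ({0, 1, x} : Finset F)
  omega

lemma k222_two [Fintype F] (hq : Fintype.card F = 2) : (2 : F) = 0 := by
  rcases k222_zero_or_one hq (2 : F) with h | h
  · exact h
  · exfalso
    have h1 : (1 : F) + 1 = 1 := by rw [one_add_one_eq_two]; exact h
    exact one_ne_zero (α := F) (by linear_combination h1)

/-- Four linearly independent vectors of `F^4` span, and there is a functional reading off the sum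
of the first and the third coordinate. -/
lemma k222_span (u0 u1 u2 u3 : Fin 4 → F)
    (hli : ∀ a b c d : F, k222cv u0 u1 u2 u3 a b c d = 0 → a = 0 ∧ b = 0 ∧ c = 0 ∧ d = 0) :
    ∃ ψ : Fin 4 → F, (∀ a b c d : F, ψ ⬝ᵥ k222cv u0 u1 u2 u3 a b c d = a + c) ∧
      ∀ x : Fin 4 → F, ∃ a b c d : F, x = k222cv u0 u1 u2 u3 a b c d := by
  let B : Matrix (Fin 4) (Fin 4) F := Matrix.of fun i j => ![u0, u1, u2, u3] j i
  have hB : ∀ c : Fin 4 → F, B *ᵥ c = k222cv u0 u1 u2 u3 (c 0) (c 1) (c 2) (c 3) := by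
    intro c
    ext i
    simp [B, Matrix.mulVec, dotProduct, Fin.sum_univ_four, k222cv]
    ring
  have hinj : Function.Injective B.mulVec := by
    intro c c' hcc
    have h0 : B *ᵥ (c - c') = 0 := by rw [Matrix.mulVec_sub, hcc, sub_self]
    rw [hB] at h0
    obtain ⟨h0, h1, h2, h3⟩ := hli _ _ _ _ h0
    funext i
    fin_cases i
    · exact sub_eq_zero.mp h0
    · exact sub_eq_zero.mp h1
    · exact sub_eq_zero.mp h2
    · exact sub_eq_zero.mp h3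
  have hunit : IsUnit B := Matrix.mulVec_injective_iff_isUnit.mp hinj
  have hdet : IsUnit B.det := (Matrix.isUnit_iff_isUnit_det B).mp hunit
  have hBB : B * B⁻¹ = 1 := Matrix.mul_nonsing_inv B hdet
  have hBB' : B⁻¹ * B = 1 := Matrix.nonsing_inv_mul B hdet
  refine ⟨![1, 0, 1, 0] ᵥ* B⁻¹, fun a b c d => ?_, fun x => ?_⟩
  · have h1 : k222cv u0 u1 u2 u3 a b c d = B *ᵥ ![a, b, c, d] := by
      rw [hB]
      rfl
    rw [h1, Matrix.dotProduct_mulVec, Matrix.vecMul_vecMul, hBB', Matrix.vecMul_one]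
    simp [dotProduct, Fin.sum_univ_four]
  · refine ⟨(B⁻¹ *ᵥ x) 0, (B⁻¹ *ᵥ x) 1, (B⁻¹ *ᵥ x) 2, (B⁻¹ *ᵥ x) 3, ?_⟩
    rw [← hB, Matrix.mulVec_mulVec, hBB, Matrix.one_mulVec]

/-- The final step: an element of `M` acting as a transvection in the coordinates `k222cv`. -/
lemma k222_fin (M : Subgroup (GL (Fin 4) F)) (u0 u1 u2 u3 : Fin 4 → F)
    (hli : ∀ a b c d : F, k222cv u0 u1 u2 u3 a b c d = 0 → a = 0 ∧ b = 0 ∧ c = 0 ∧ d = 0)
    (t : GL (Fin 4) F) (ht : t ∈ M)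
    (hact : ∀ a b c d : F, (t : Matrix (Fin 4) (Fin 4) F) *ᵥ k222cv u0 u1 u2 u3 a b c d =
      k222cv u0 u1 u2 u3 a (b + (a + c)) c (d + (a + c))) :
    ∃ w ψ : Fin 4 → F, w ≠ 0 ∧ ψ ≠ 0 ∧ TM M w ψ := by
  obtain ⟨ψ, hψ, hspan⟩ := k222_span u0 u1 u2 u3 hli
  have hval : (t : Matrix (Fin 4) (Fin 4) F) = tv (k222cv u0 u1 u2 u3 0 1 0 1) ψ := by
    apply Matrix.mulVec_injective
    funext x
    obtain ⟨a, b, c, d, rfl⟩ := hspan x
    rw [hact, tv_mulVec, hψ]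
    simp only [k222cv_def]
    module
  refine ⟨k222cv u0 u1 u2 u3 0 1 0 1, ψ, ?_, ?_, ?_, ?_⟩
  · intro h0
    exact one_ne_zero (hli _ _ _ _ h0).2.1
  · intro h0
    have h1 := hψ 1 0 0 0
    rw [h0, zero_dotProduct, add_zero] at h1
    exact zero_ne_one h1
  · rw [hψ, add_zero]
  · intro t' ht'
    have h1 : t' = t := Units.ext (by rw [ht', hval])
    rw [h1]
    exact ht

end

/-- **P-222**: for `q = 2`, `r = 2`, `n = 4`, a subgroup `M ≥ klG K` containing an element `h`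
fixing `u` and moving `ω u` off the `K`-line through `u` contains an `F`-transvection. -/
theorem k222 {F : Type*} [Field F] [Fintype F] (hq : Fintype.card F = 2)
    {K : Subalgebra F (Matrix (Fin 4) (Fin 4) F)} (hK : Cfsg.Geo.IsFieldSubalgebra 2 K)
    (M : Subgroup (GL (Fin 4) F)) (hM : klG K ≤ M) (u : Fin 4 → F) (hu : u ≠ 0)
    (h : GL (Fin 4) F) (hh : h ∈ M) (hhu : (h : Matrix (Fin 4) (Fin 4) F) *ᵥ u = u) (ω : ↥K)
    (hω : ∀ k : ↥K, (k : Matrix (Fin 4) (Fin 4) F) *ᵥ u ≠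
      (h : Matrix (Fin 4) (Fin 4) F) *ᵥ ((ω : Matrix (Fin 4) (Fin 4) F) *ᵥ u)) :
    ∃ w ψ : Fin 4 → F, w ≠ 0 ∧ ψ ≠ 0 ∧ TM M w ψ := by
  have h01 := k222_zero_or_one hq
  have h2 : (2 : F) = 0 := k222_two hq
  haveI : IsDomain ↥K := (fs_isField hK).isDomain
  have hcomm : ∀ a b : ↥K, a * b = b * a := fun a b => Subtype.ext (hK.comm a a.2 b b.2)
  have hω' : ∀ c : F, ω ≠ c • (1 : ↥K) := by
    intro c hc
    apply hω (c • (1 : ↥K))
    rw [hc, Subalgebra.coe_smul, OneMemClass.coe_one, Matrix.smul_mulVec, Matrix.one_mulVec,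
      Matrix.mulVec_smul, hhu]
  have hK1 : (1 : ↥K) + 1 = 0 := by
    have h3 : (2 : F) • (1 : ↥K) = 0 := by rw [h2, zero_smul]
    rw [two_smul] at h3
    exact h3
  have hKx : ∀ k : ↥K, k + k = 0 := by
    intro k
    have h3 : k + k = k * (1 + 1) := by rw [mul_add, mul_one]
    rw [h3, hK1, mul_zero]
  have hvv : ∀ x : Fin 4 → F, x + x = 0 := by
    intro x
    rw [← two_smul F x, h2, zero_smul]
  have h1ω : ∀ c d : F, c • (1 : ↥K) + d • ω = 0 → c = 0 ∧ d = 0 := by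
    intro c d hcd
    rcases h01 d with rfl | rfl
    · rw [zero_smul, add_zero] at hcd
      rcases h01 c with rfl | rfl
      · exact ⟨rfl, rfl⟩
      · rw [one_smul] at hcd
        exact absurd hcd one_ne_zero
    · rw [one_smul] at hcd
      exfalso
      apply hω' (-c)
      rw [neg_smul]
      exact eq_neg_of_add_eq_zero_right hcd
  have hωω : ω * ω = ω + 1 := by
    obtain ⟨a, b, hab⟩ := fs_two_decomp hK ω hω' (ω * ω)
    rcases h01 a with rfl | rfl <;> rcases h01 b with rfl | rfl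
    · exfalso
      rw [zero_smul, zero_smul, add_zero] at hab
      have h3 := mul_self_eq_zero.mp hab
      exact hω' 0 (by rw [h3, zero_smul])
    · exfalso
      rw [zero_smul, one_smul, zero_add] at hab
      have h3 : ω * (ω - 1) = 0 := by rw [mul_sub, mul_one, hab, sub_self]
      rcases mul_eq_zero.mp h3 with h4 | h4
      · exact hω' 0 (by rw [h4, zero_smul])
      · exact hω' 1 (by rw [one_smul]; exact sub_eq_zero.mp h4)
    · exfalso
      rw [one_smul, zero_smul, add_zero] at hab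
      have h3 : (ω + 1) * (ω + 1) = 0 := by
        have h4 : (ω + 1) * (ω + 1) = ω * ω + (ω + ω) + 1 := by
          rw [add_mul, mul_add, mul_one, one_mul]
          abel
        rw [h4, hab, hKx ω, add_zero, hK1]
      have h5 := mul_self_eq_zero.mp h3
      apply hω' (-1)
      rw [neg_smul, one_smul]
      exact eq_neg_of_add_eq_zero_left h5
    · rw [one_smul, one_smul] at hab
      rw [hab, add_comm]
  have hω0 : ω ≠ 0 := fun h0 => hω' 0 (by rw [h0, zero_smul])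
  have hωωv : ∀ x : Fin 4 → F, ω.1 *ᵥ (ω.1 *ᵥ x) = ω.1 *ᵥ x + x := by
    intro x
    rw [Matrix.mulVec_mulVec, ← Subalgebra.coe_mul, hωω, Subalgebra.coe_add, OneMemClass.coe_one,
      Matrix.add_mulVec, Matrix.one_mulVec]
  have hinv : ∀ x : Fin 4 → F, h⁻¹.1 *ᵥ (h.1 *ᵥ x) = x := by
    intro x
    rw [Matrix.mulVec_mulVec, ← Units.val_mul, inv_mul_cancel, Units.val_one, Matrix.one_mulVec]
  have hhinv : ∀ x : Fin 4 → F, h.1 *ᵥ (h⁻¹.1 *ᵥ x) = x := by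
    intro x
    rw [Matrix.mulVec_mulVec, ← Units.val_mul, mul_inv_cancel, Units.val_one, Matrix.one_mulVec]
  have hinvu : h⁻¹.1 *ᵥ u = u := by
    have h3 := hinv u
    rw [hhu] at h3
    exact h3
  obtain ⟨v, hv⟩ : ∃ v : Fin 4 → F, v = h.1 *ᵥ (ω.1 *ᵥ u) := ⟨_, rfl⟩
  rw [← hv] at hω
  have hinvv : h⁻¹.1 *ᵥ v = ω.1 *ᵥ u := by rw [hv, hinv]
  have hhωu : h.1 *ᵥ (ω.1 *ᵥ u) = v := hv.symm
  have hKv : ∀ (a b : F) (x : Fin 4 → F),
      (a • (1 : ↥K) + b • ω).1 *ᵥ x = a • x + b • (ω.1 *ᵥ x) := by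
    intro a b x
    rw [Subalgebra.coe_add, Subalgebra.coe_smul, Subalgebra.coe_smul, OneMemClass.coe_one,
      Matrix.add_mulVec, Matrix.smul_mulVec, Matrix.smul_mulVec, Matrix.one_mulVec]
  -- linear independence of `u, ω u, v, ω v`
  have hli : ∀ a b c d : F, k222cv u (ω.1 *ᵥ u) v (ω.1 *ᵥ v) a b c d = 0 →
      a = 0 ∧ b = 0 ∧ c = 0 ∧ d = 0 := by
    intro a b c d h0
    have h3 : (a • (1 : ↥K) + b • ω).1 *ᵥ u + (c • (1 : ↥K) + d • ω).1 *ᵥ v = 0 := by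
      rw [hKv, hKv, ← h0, k222cv_def]
      abel
    have h4 : c • (1 : ↥K) + d • ω = 0 := by
      by_contra hk2
      obtain ⟨k', hk', hkk'⟩ := hK.inv _ (c • (1 : ↥K) + d • ω).2 (fun h => hk2 (Subtype.ext h))
      apply hω (-(⟨k', hk'⟩ * (a • (1 : ↥K) + b • ω)))
      have h5 := congrArg (fun z => k' *ᵥ z) h3
      simp only [Matrix.mulVec_add, Matrix.mulVec_mulVec, Matrix.mulVec_zero] at h5
      rw [hK.comm k' hk' _ (c • (1 : ↥K) + d • ω).2, hkk', Matrix.one_mulVec] at h5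
      rw [NegMemClass.coe_neg, Subalgebra.coe_mul, Matrix.neg_mulVec]
      exact (eq_neg_of_add_eq_zero_right h5).symm
    obtain ⟨hc, hd⟩ := h1ω c d h4
    rw [h4, ZeroMemClass.coe_zero, Matrix.zero_mulVec, add_zero] at h3
    have h6 := fs_eq_zero hK (a • (1 : ↥K) + b • ω).2 hu h3
    have h7 : a • (1 : ↥K) + b • ω = 0 := Subtype.ext h6
    obtain ⟨ha, hb⟩ := h1ω a b h7
    exact ⟨ha, hb, hc, hd⟩
  obtain ⟨πv, hπvu, hπvv⟩ := exists_kfun_pair hK u v hω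
  have hvu : ∀ k : ↥K, k.1 *ᵥ v ≠ u := by
    intro k hk
    have hk0 : k.1 ≠ 0 := by
      intro h0
      rw [h0, Matrix.zero_mulVec] at hk
      exact hu hk.symm
    obtain ⟨k', hk', hkk'⟩ := hK.inv k.1 k.2 hk0
    apply hω ⟨k', hk'⟩
    show k' *ᵥ u = v
    rw [← hk, Matrix.mulVec_mulVec, hK.comm k' hk' k.1 k.2, hkk', Matrix.one_mulVec]
  obtain ⟨πu, hπuv, hπuu⟩ := exists_kfun_pair hK v u hvu
  obtain ⟨_, -, hspan⟩ := k222_span u (ω.1 *ᵥ u) v (ω.1 *ᵥ v) hli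
  have hπv_cv : ∀ a b c d : F, πv (k222cv u (ω.1 *ᵥ u) v (ω.1 *ᵥ v) a b c d) =
      c • (1 : ↥K) + d • ω := by
    intro a b c d
    rw [k222cv_def, πv.map_add, πv.map_add, πv.map_add, πv.map_smul, πv.map_smul, πv.map_smul,
      πv.map_smul, πv.map_k, πv.map_k, hπvu, hπvv, mul_zero, mul_one, smul_zero, smul_zero,
      zero_add, zero_add]
  have hκ : ∀ c d : F, c • πv (h⁻¹.1 *ᵥ (ω.1 *ᵥ u)) + d • πv (h⁻¹.1 *ᵥ (ω.1 *ᵥ v)) = 0 →
      c = 0 ∧ d = 0 := by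
    intro c d hcd
    obtain ⟨a', b', c', d', hx'⟩ := hspan (h⁻¹.1 *ᵥ (ω.1 *ᵥ (c • u + d • v)))
    have hx : πv (h⁻¹.1 *ᵥ (ω.1 *ᵥ (c • u + d • v))) = 0 := by
      rw [Matrix.mulVec_add, Matrix.mulVec_smul, Matrix.mulVec_smul, Matrix.mulVec_add,
        Matrix.mulVec_smul, Matrix.mulVec_smul, πv.map_add, πv.map_smul, πv.map_smul]
      exact hcd
    rw [hx', hπv_cv] at hx
    obtain ⟨hc', hd'⟩ := h1ω c' d' hx
    subst hc' hd'
    have h5 : ω.1 *ᵥ (c • u + d • v) = a' • u + b' • v := by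
      rw [← hhinv (ω.1 *ᵥ (c • u + d • v)), hx', k222cv_def, Matrix.mulVec_add, Matrix.mulVec_add,
        Matrix.mulVec_add, Matrix.mulVec_smul, Matrix.mulVec_smul, Matrix.mulVec_smul,
        Matrix.mulVec_smul, hhu, hhωu, zero_smul, zero_smul, add_zero, add_zero]
    rw [Matrix.mulVec_add, Matrix.mulVec_smul, Matrix.mulVec_smul] at h5
    have h4 : k222cv u (ω.1 *ᵥ u) v (ω.1 *ᵥ v) (-a') c (-b') d = 0 := by
      rw [k222cv_def]
      have h6 : (-a') • u + c • (ω.1 *ᵥ u) + (-b') • v + d • (ω.1 *ᵥ v) =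
          (c • (ω.1 *ᵥ u) + d • (ω.1 *ᵥ v)) - (a' • u + b' • v) := by module
      rw [h6, h5, sub_self]
    obtain ⟨-, hc, -, hd⟩ := hli _ _ _ _ h4
    exact ⟨hc, hd⟩
  obtain ⟨κ₁, hκ₁⟩ : ∃ κ₁ : ↥K, πv (h⁻¹.1 *ᵥ (ω.1 *ᵥ u)) = κ₁ := ⟨_, rfl⟩
  obtain ⟨κ₂, hκ₂⟩ : ∃ κ₂ : ↥K, πv (h⁻¹.1 *ᵥ (ω.1 *ᵥ v)) = κ₂ := ⟨_, rfl⟩
  rw [hκ₁, hκ₂] at hκ
  have hκ1 : κ₁ ≠ 0 := by
    intro h0
    exact one_ne_zero (hκ 1 0 (by rw [h0, smul_zero, zero_smul, add_zero])).1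
  have hκ2 : κ₂ ≠ 0 := by
    intro h0
    exact one_ne_zero (hκ 0 1 (by rw [h0, smul_zero, zero_smul, add_zero])).2
  have hκ12 : κ₁ ≠ κ₂ := by
    intro h0
    exact one_ne_zero (hκ 1 1 (by rw [h0, one_smul, hKx])).1
  obtain ⟨κ', hκ'mem, hκκ'⟩ := hK.inv κ₁.1 κ₁.2 (fun h0 => hκ1 (Subtype.ext h0))
  have hκκ : (⟨κ', hκ'mem⟩ : ↥K) * κ₁ = 1 := by
    rw [hcomm]
    exact Subtype.ext hκκ'
  obtain ⟨α, hα⟩ : ∃ α : ↥K, α = ω * ⟨κ', hκ'mem⟩ := ⟨_, rfl⟩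
  have hα1 : α * κ₁ = ω := by rw [hα, mul_assoc, hκκ, mul_one]
  have hα2 : α * κ₂ = ω + 1 ∨ α * κ₂ = 1 := by
    obtain ⟨x, y, hxy⟩ := fs_two_decomp hK ω hω' (⟨κ', hκ'mem⟩ * κ₂)
    have e : α * κ₂ = ω * (x • (1 : ↥K) + y • ω) := by rw [hα, mul_assoc, hxy]
    have e2 : κ₂ = κ₁ * (x • (1 : ↥K) + y • ω) := by
      rw [← hxy, ← mul_assoc, hcomm κ₁, hκκ, one_mul]
    rcases h01 x with rfl | rfl <;> rcases h01 y with rfl | rfl
    · exfalso
      rw [zero_smul, zero_smul, add_zero, mul_zero] at e2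
      exact hκ2 e2
    · left
      rw [e, zero_smul, one_smul, zero_add, hωω]
    · exfalso
      rw [one_smul, zero_smul, add_zero, mul_one] at e2
      exact hκ12 e2.symm
    · right
      rw [e, one_smul, one_smul, mul_add, mul_one, hωω, ← add_assoc, hKx, zero_add]
  -- the scalar `ω`
  obtain ⟨ω', hω'mem, hωω'⟩ := hK.inv ω.1 ω.2 (fun h0 => hω0 (Subtype.ext h0))
  obtain ⟨s, hs⟩ : ∃ s : GL (Fin 4) F, s.1 = ω.1 :=
    ⟨⟨ω.1, ω', hωω', by rw [hK.comm ω' hω'mem ω.1 ω.2]; exact hωω'⟩, rfl⟩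
  have hsM : s ∈ M := by
    apply hM
    refine ⟨fun k hk => ?_, ?_⟩
    · rw [hs]
      exact hK.comm ω.1 ω.2 k hk
    · have hd : s.1.det ≠ 0 := by
        have h1 : s.1.det * (s⁻¹).1.det = 1 := by
          rw [← Matrix.det_mul, ← Units.val_mul, mul_inv_cancel, Units.val_one, Matrix.det_one]
        intro h0
        rw [h0, zero_mul] at h1
        exact zero_ne_one h1
      rcases h01 s.1.det with h0 | h0
      · exact absurd h0 hd
      · exact h0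
  have hs_cv : ∀ a b c d : F, s.1 *ᵥ k222cv u (ω.1 *ᵥ u) v (ω.1 *ᵥ v) a b c d =
      k222cv u (ω.1 *ᵥ u) v (ω.1 *ᵥ v) b (a + b) d (c + d) := by
    intro a b c d
    rw [hs]
    simp only [k222cv_def, Matrix.mulVec_add, Matrix.mulVec_smul, hωωv]
    module
  -- the torus element `τ`
  obtain ⟨τ, hτK, hτ⟩ := exists_tor hK v πv hπvv ω hω0
  have hτ' : ∀ x : Fin 4 → F, τ.1 *ᵥ x = x + ((ω - 1) * πv x).1 *ᵥ v := by
    intro x
    have h3 := hτ x
    rw [hq, show 2 - 1 = 1 from rfl, pow_one] at h3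
    exact h3
  have hτu : τ.1 *ᵥ u = u := by
    rw [hτ', hπvu, mul_zero, ZeroMemClass.coe_zero, Matrix.zero_mulVec, add_zero]
  have hτωu : τ.1 *ᵥ (ω.1 *ᵥ u) = ω.1 *ᵥ u := by
    rw [hτ', πv.map_k, hπvu, mul_zero, mul_zero, ZeroMemClass.coe_zero, Matrix.zero_mulVec,
      add_zero]
  have hτv : τ.1 *ᵥ v = ω.1 *ᵥ v := by
    rw [hτ', hπvv, mul_one, Subalgebra.coe_sub, OneMemClass.coe_one, Matrix.sub_mulVec,
      Matrix.one_mulVec]
    abel
  have hτωv : τ.1 *ᵥ (ω.1 *ᵥ v) = ω.1 *ᵥ v + v := by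
    rw [hτ', πv.map_k, hπvv, mul_one]
    have h3 : (ω - 1) * ω = 1 := by rw [sub_mul, one_mul, hωω, add_sub_cancel_left]
    rw [h3, OneMemClass.coe_one, Matrix.one_mulVec]
  have hτ_cv : ∀ a b c d : F, τ.1 *ᵥ k222cv u (ω.1 *ᵥ u) v (ω.1 *ᵥ v) a b c d =
      k222cv u (ω.1 *ᵥ u) v (ω.1 *ᵥ v) a b d (c + d) := by
    intro a b c d
    simp only [k222cv_def, Matrix.mulVec_add, Matrix.mulVec_smul, hτu, hτωu, hτv, hτωv]
    module
  -- the swap `σ`
  have hπs : (πu.add πv) (u + v) = 0 := by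
    rw [KFun.add_apply, πu.map_add, πv.map_add, hπuu, hπuv, hπvu, hπvv, add_zero, zero_add, hK1]
  obtain ⟨σ, hσdef⟩ : ∃ σ : GL (Fin 4) F, σ = ktG (u + v) (πu.add πv) hπs := ⟨_, rfl⟩
  have hσM : σ ∈ M := by
    rw [hσdef]
    exact hM (ktG_mem _ _ _)
  have hσ : ∀ x : Fin 4 → F, σ.1 *ᵥ x = x + (πu x + πv x).1 *ᵥ (u + v) := by
    intro x
    rw [hσdef, ktG_mulVec, KFun.add_apply]
  have hσu : σ.1 *ᵥ u = v := by
    rw [hσ, hπuu, hπvu, add_zero, OneMemClass.coe_one, Matrix.one_mulVec, ← add_assoc, hvv,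
      zero_add]
  have hσωu : σ.1 *ᵥ (ω.1 *ᵥ u) = ω.1 *ᵥ v := by
    rw [hσ, πu.map_k, πv.map_k, hπuu, hπvu, mul_one, mul_zero, add_zero, Matrix.mulVec_add,
      ← add_assoc, hvv, zero_add]
  have hσv : σ.1 *ᵥ v = u := by
    rw [hσ, hπuv, hπvv, zero_add, OneMemClass.coe_one, Matrix.one_mulVec, add_comm u v,
      ← add_assoc, hvv, zero_add]
  have hσωv : σ.1 *ᵥ (ω.1 *ᵥ v) = ω.1 *ᵥ u := by
    rw [hσ, πu.map_k, πv.map_k, hπuv, hπvv, mul_one, mul_zero, zero_add, Matrix.mulVec_add,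
      add_comm (ω.1 *ᵥ u), ← add_assoc, hvv, zero_add]
  have hσ_cv : ∀ a b c d : F, σ.1 *ᵥ k222cv u (ω.1 *ᵥ u) v (ω.1 *ᵥ v) a b c d =
      k222cv u (ω.1 *ᵥ u) v (ω.1 *ᵥ v) c d a b := by
    intro a b c d
    simp only [k222cv_def, Matrix.mulVec_add, Matrix.mulVec_smul, hσu, hσωu, hσv, hσωv]
    module
  -- the conjugate `y` of a `K`-transvection
  have hy0 : (πv.smul hK.comm α) u = 0 := by rw [KFun.smul_apply, hπvu, mul_zero]
  obtain ⟨y, hydef⟩ : ∃ y : GL (Fin 4) F, y = h * ktG u (πv.smul hK.comm α) hy0 * h⁻¹ :=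
    ⟨_, rfl⟩
  have hyM : y ∈ M := by
    rw [hydef]
    exact M.mul_mem (M.mul_mem hh (hM (ktG_mem _ _ _))) (M.inv_mem hh)
  have hy : ∀ x : Fin 4 → F, y.1 *ᵥ x = x + h.1 *ᵥ ((α * πv (h⁻¹.1 *ᵥ x)).1 *ᵥ u) := by
    intro x
    rw [hydef, Units.val_mul, Units.val_mul, ← Matrix.mulVec_mulVec, ← Matrix.mulVec_mulVec,
      ktG_mulVec, Matrix.mulVec_add, hhinv, KFun.smul_apply]
  have hyu : y.1 *ᵥ u = u := by
    rw [hy, hinvu, hπvu, mul_zero, ZeroMemClass.coe_zero, Matrix.zero_mulVec, Matrix.mulVec_zero,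
      add_zero]
  have hyωu : y.1 *ᵥ (ω.1 *ᵥ u) = ω.1 *ᵥ u + v := by
    rw [hy, hκ₁, hα1, hhωu]
  have hyv : y.1 *ᵥ v = v := by
    rw [hy, hinvv, πv.map_k, hπvu, mul_zero, mul_zero, ZeroMemClass.coe_zero, Matrix.zero_mulVec,
      Matrix.mulVec_zero, add_zero]
  have hyωv : y.1 *ᵥ (ω.1 *ᵥ v) = ω.1 *ᵥ v + h.1 *ᵥ ((α * κ₂).1 *ᵥ u) := by
    rw [hy, hκ₂]
  rcases hα2 with hA | hB
  · -- type A
    have hyωv' : y.1 *ᵥ (ω.1 *ᵥ v) = ω.1 *ᵥ v + (v + u) := by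
      rw [hyωv, hA, Subalgebra.coe_add, OneMemClass.coe_one, Matrix.add_mulVec,
        Matrix.one_mulVec, Matrix.mulVec_add, hhωu, hhu]
    have hy_cv : ∀ a b c d : F, y.1 *ᵥ k222cv u (ω.1 *ᵥ u) v (ω.1 *ᵥ v) a b c d =
        k222cv u (ω.1 *ᵥ u) v (ω.1 *ᵥ v) (a + d) b (b + c + d) d := by
      intro a b c d
      simp only [k222cv_def, Matrix.mulVec_add, Matrix.mulVec_smul, hyu, hyωu, hyv, hyωv']
      module
    refine k222_fin M u (ω.1 *ᵥ u) v (ω.1 *ᵥ v) hli (y * s * τ * y * s * σ)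
      (M.mul_mem (M.mul_mem (M.mul_mem (M.mul_mem (M.mul_mem hyM hsM) (hM hτK)) hyM) hsM) hσM) ?_
    intro a b c d
    rw [Units.val_mul, Units.val_mul, Units.val_mul, Units.val_mul, Units.val_mul,
      ← Matrix.mulVec_mulVec, ← Matrix.mulVec_mulVec, ← Matrix.mulVec_mulVec,
      ← Matrix.mulVec_mulVec, ← Matrix.mulVec_mulVec, hσ_cv, hs_cv, hy_cv, hτ_cv, hs_cv, hy_cv]
    refine k222cv_congr _ _ _ _ ?_ ?_ ?_ ?_
    · linear_combination (a + 2 * b + c + d) * h2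
    · linear_combination d * h2
    · linear_combination (3 * a + 4 * b + c + 2 * d) * h2
    · linear_combination (a + 2 * b) * h2
  · -- type B
    have hyωv' : y.1 *ᵥ (ω.1 *ᵥ v) = ω.1 *ᵥ v + u := by
      rw [hyωv, hB, OneMemClass.coe_one, Matrix.one_mulVec, hhu]
    have hy_cv : ∀ a b c d : F, y.1 *ᵥ k222cv u (ω.1 *ᵥ u) v (ω.1 *ᵥ v) a b c d =
        k222cv u (ω.1 *ᵥ u) v (ω.1 *ᵥ v) (a + d) b (b + c) d := by
      intro a b c d
      simp only [k222cv_def, Matrix.mulVec_add, Matrix.mulVec_smul, hyu, hyωu, hyv, hyωv']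
      module
    refine k222_fin M u (ω.1 *ᵥ u) v (ω.1 *ᵥ v) hli (y * s * y * s * σ)
      (M.mul_mem (M.mul_mem (M.mul_mem (M.mul_mem hyM hsM) hyM) hsM) hσM) ?_
    intro a b c d
    rw [Units.val_mul, Units.val_mul, Units.val_mul, Units.val_mul,
      ← Matrix.mulVec_mulVec, ← Matrix.mulVec_mulVec, ← Matrix.mulVec_mulVec,
      ← Matrix.mulVec_mulVec, hσ_cv, hs_cv, hy_cv, hs_cv, hy_cv]
    refine k222cv_congr _ _ _ _ ?_ ?_ ?_ ?_
    · linear_combination (b + c + d) * h2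
    · linear_combination d * h2
    · linear_combination (a + b + d) * h2
    · linear_combination b * h2

end Cfsg.Agent.Lib.Helper98
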