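import Mathlib

set_option autoImplicit false

namespace Cfsg.Agent.Lib.Helper98

open Equiv

instance fact_prime_five : Fact (Nat.Prime 5) := ⟨by norm_num⟩

theorem perm_le_index (n : ℕ) (hn : n ≠ 4) (H : Subgroup (Perm (Fin n))) (hH : H ≠ ⊤)
    (hA : H ≠ alternatingGroup (Fin n)) : n ≤ H.index := by
  by_contra hlt
  push Not at hlt
  have hidx0 : H.index ≠ 0 := Subgroup.index_ne_zero_of_finite
  have hidx1 : H.index ≠ 1 := fun h => hH (Subgroup.index_eq_one.mp h)
  have hidx2 : H.index ≠ 2 := fun h => hA (Equiv.Perm.eq_alternatingGroup_of_index_eq_two h)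
  have h5 : 5 ≤ n := by omega
  have hdvd : H.normalCore.index ∣ H.index.factorial := by
    rw [Subgroup.normalCore_eq_ker, Subgroup.index_ker, Subgroup.index_eq_card, ← Nat.card_perm]
    exact Subgroup.card_subgroup_dvd_card (MulAction.toPermHom (Perm (Fin n)) (Perm (Fin n) ⧸ H)).range
  have hne : Nontrivial H.normalCore := by
    rw [Subgroup.nontrivial_iff_ne_bot]
    intro h
    rw [h, Subgroup.index_bot, Nat.card_perm, Nat.card_fin] at hdvd
    have h1 := Nat.le_of_dvd (Nat.factorial_pos _) hdvd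
    have h2 := (Nat.factorial_lt (by omega)).mpr hlt
    omega
  have hle : alternatingGroup (Fin n) ≤ H :=
    (Equiv.Perm.alternatingGroup_le_of_normal (by simpa using h5) hne).trans H.normalCore_le
  have hd : H.index ∣ (alternatingGroup (Fin n)).index := Subgroup.index_dvd_of_le hle
  have : Nontrivial (Fin n) := Fin.nontrivial_iff_two_le.mpr (by omega)
  rw [alternatingGroup.index_eq_two] at hd
  have := Nat.le_of_dvd (by norm_num) hd
  omega

theorem sylow5_card_eq {K : Type*} [Group K] [Finite K] {m : ℕ} (hK : Nat.card K = 5 * m)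
    (hm : ¬ 5 ∣ m) (P : Sylow 5 K) : Nat.card P = 5 := by
  have hm0 : m ≠ 0 := fun h => hm (h ▸ dvd_zero 5)
  rw [Sylow.card_eq_multiplicity, hK, Nat.factorization_mul (by norm_num) hm0]
  simp [Nat.Prime.factorization (by norm_num : Nat.Prime 5), Nat.factorization_eq_zero_of_not_dvd hm]

theorem card_perm_fin5 : Nat.card (Perm (Fin 5)) = 120 := by
  rw [Nat.card_perm, Nat.card_fin]; rfl

theorem card_sylow5_perm5 : Nat.card (Sylow 5 (Perm (Fin 5))) = 6 := by
  have P : Sylow 5 (Perm (Fin 5)) := default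
  have hP : Nat.card P = 5 := sylow5_card_eq (m := 24) (by rw [card_perm_fin5]) (by norm_num) P
  have h1 : Nat.card (Sylow 5 (Perm (Fin 5))) ≡ 1 [MOD 5] := card_sylow_modEq_one 5 (Perm (Fin 5))
  have h2 : Nat.card (Sylow 5 (Perm (Fin 5))) ∣ (P : Subgroup (Perm (Fin 5))).index := P.card_dvd_index
  have hidx : (P : Subgroup (Perm (Fin 5))).index = 24 := by
    have := (P : Subgroup (Perm (Fin 5))).card_mul_index
    rw [card_perm_fin5] at this
    have hP' : Nat.card (P : Subgroup (Perm (Fin 5))) = 5 := hP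
    rw [hP'] at this
    omega
  rw [hidx] at h2
  have h3 : Nat.card (Sylow 5 (Perm (Fin 5))) ≤ 24 := Nat.le_of_dvd (by norm_num) h2
  have h4 : Nat.card (Sylow 5 (Perm (Fin 5))) % 5 = 1 := h1
  have h5 : Nat.card (Sylow 5 (Perm (Fin 5))) ≠ 1 := by
    intro hone
    have hsub : Subsingleton (Sylow 5 (Perm (Fin 5))) := (Nat.card_eq_one_iff_unique.mp hone).1
    have hn : (P : Subgroup (Perm (Fin 5))).Normal := P.normal_of_subsingleton
    have hnt : Nontrivial (P : Subgroup (Perm (Fin 5))) := by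
      rw [← Finite.one_lt_card_iff_nontrivial]
      have hP' : Nat.card (P : Subgroup (Perm (Fin 5))) = 5 := hP
      omega
    have hle := Equiv.Perm.alternatingGroup_le_of_normal (α := Fin 5) (by simp) hnt
    have hc := Subgroup.card_le_of_le hle
    have hA : Nat.card (alternatingGroup (Fin 5)) = 60 := by
      have := two_mul_nat_card_alternatingGroup (α := Fin 5)
      rw [card_perm_fin5] at this
      omega
    have hP' : Nat.card (P : Subgroup (Perm (Fin 5))) = 5 := hP
    omega
  generalize Nat.card (Sylow 5 (Perm (Fin 5))) = k at *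
  interval_cases k <;> simp_all

theorem three_cycle_mem : (swap (0 : Fin 5) 1 * swap (0 : Fin 5) 2) ∈ alternatingGroup (Fin 5) := by
  rw [Equiv.Perm.mem_alternatingGroup, map_mul, Equiv.Perm.sign_swap (by decide),
    Equiv.Perm.sign_swap (by decide)]
  rfl

theorem three_cycle_ne_one : (swap (0 : Fin 5) 1 * swap (0 : Fin 5) 2) ≠ 1 := by
  decide

theorem fixed_or_transitive {X : Type*} [Finite X] (hX : Nat.card X = 6)
    (ρ : Perm (Fin 5) →* Perm X) (hρ : Function.Injective ρ) :
    (∃ x, ∀ g, ρ g x = x) ∨ (∀ x y, ∃ g, ρ g x = y) := by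
  classical
  let _ : MulAction (Perm (Fin 5)) X := MulAction.compHom X ρ
  have hsmul : ∀ (g : Perm (Fin 5)) (x : X), g • x = ρ g x := fun g x => rfl
  have hidx : ∀ x : X, (MulAction.stabilizer (Perm (Fin 5)) x).index =
      (MulAction.orbit (Perm (Fin 5)) x).ncard := fun x => MulAction.index_stabilizer _ x
  have hcases : ∀ x : X, MulAction.stabilizer (Perm (Fin 5)) x = ⊤ ∨
      MulAction.stabilizer (Perm (Fin 5)) x = alternatingGroup (Fin 5) ∨
      5 ≤ (MulAction.stabilizer (Perm (Fin 5)) x).index := by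
    intro x
    by_cases h1 : MulAction.stabilizer (Perm (Fin 5)) x = ⊤
    · exact Or.inl h1
    by_cases h2 : MulAction.stabilizer (Perm (Fin 5)) x = alternatingGroup (Fin 5)
    · exact Or.inr (Or.inl h2)
    exact Or.inr (Or.inr (perm_le_index 5 (by norm_num) _ h1 h2))
  by_cases hfix : ∃ x, ∀ g, ρ g x = x
  · exact Or.inl hfix
  right
  push Not at hfix
  have hnt : ∀ x : X, MulAction.stabilizer (Perm (Fin 5)) x ≠ ⊤ := by
    intro x h
    obtain ⟨g, hg⟩ := hfix x
    have hm : g ∈ MulAction.stabilizer (Perm (Fin 5)) x := by rw [h]; exact Subgroup.mem_top g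
    exact hg hm
  have hex : ∃ x : X, 5 ≤ (MulAction.stabilizer (Perm (Fin 5)) x).index := by
    by_contra hno
    push Not at hno
    have hall : ∀ x : X, MulAction.stabilizer (Perm (Fin 5)) x = alternatingGroup (Fin 5) := by
      intro x
      rcases hcases x with h | h | h
      · exact absurd h (hnt x)
      · exact h
      · exact absurd h (not_le.mpr (hno x))
    have h3 := three_cycle_mem
    have h4 : ρ (swap (0 : Fin 5) 1 * swap 0 2) = 1 := by
      ext x
      have hm : (swap (0 : Fin 5) 1 * swap 0 2) ∈ MulAction.stabilizer (Perm (Fin 5)) x := by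
        rw [hall x]; exact h3
      exact hm
    have h5 := hρ (h4.trans (map_one ρ).symm)
    exact three_cycle_ne_one h5
  obtain ⟨x, hx⟩ := hex
  rw [hidx] at hx
  have horb : MulAction.orbit (Perm (Fin 5)) x = Set.univ := by
    by_contra hne
    obtain ⟨y, hy⟩ : ∃ y, y ∉ MulAction.orbit (Perm (Fin 5)) x := by
      by_contra h
      push Not at h
      exact hne (Set.eq_univ_of_forall h)
    have hcompl : (MulAction.orbit (Perm (Fin 5)) x)ᶜ = {y} := by
      have hc : ((MulAction.orbit (Perm (Fin 5)) x)ᶜ).ncard ≤ 1 := by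
        have := Set.ncard_add_ncard_compl (MulAction.orbit (Perm (Fin 5)) x)
        rw [hX] at this
        omega
      rw [Set.ncard_le_one_iff_eq] at hc
      rcases hc with hc | ⟨z, hz⟩
      · exact absurd (hc ▸ (show y ∈ (MulAction.orbit (Perm (Fin 5)) x)ᶜ from hy)) (Set.notMem_empty y)
      · have hyz : y ∈ ({z} : Set X) := hz ▸ (show y ∈ (MulAction.orbit (Perm (Fin 5)) x)ᶜ from hy)
        rw [Set.mem_singleton_iff] at hyz
        rw [hz, hyz]
    obtain ⟨g, hg⟩ := hfix y
    apply hg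
    have hmem : ρ g y ∈ (MulAction.orbit (Perm (Fin 5)) x)ᶜ := by
      intro hmem
      apply hy
      obtain ⟨h, hh⟩ := hmem
      refine ⟨g⁻¹ * h, ?_⟩
      change (g⁻¹ * h) • x = y
      rw [mul_smul]
      have hh' : h • x = g • y := hh
      rw [hh', inv_smul_smul]
    rw [hcompl] at hmem
    exact hmem
  intro a b
  have ha : a ∈ MulAction.orbit (Perm (Fin 5)) x := horb ▸ Set.mem_univ a
  have hb : b ∈ MulAction.orbit (Perm (Fin 5)) x := horb ▸ Set.mem_univ b
  obtain ⟨ga, hga⟩ := ha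
  obtain ⟨gb, hgb⟩ := hb
  refine ⟨gb * ga⁻¹, ?_⟩
  have hga' : ga • x = a := hga
  have hgb' : gb • x = b := hgb
  rw [← hsmul, ← hga', ← hgb', mul_smul, inv_smul_smul]

theorem factorization_120_5 : (Nat.factorization 120) 5 = 1 := by
  rw [show (120 : ℕ) = 5 * 24 by norm_num, Nat.factorization_mul (by norm_num) (by norm_num)]
  simp [Nat.Prime.factorization (by norm_num : Nat.Prime 5), Nat.factorization_eq_zero_of_not_dvd]

theorem exists_equivariant {X : Type*} [Finite X] (hX : Nat.card X = 6)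
    (ρ : Perm (Fin 5) →* Perm X) (htr : ∀ x y, ∃ g, ρ g x = y) :
    ∃ f : X ≃ Sylow 5 (Perm (Fin 5)), ∀ g x, f (ρ g x) = g • f x := by
  classical
  let _ : MulAction (Perm (Fin 5)) X := MulAction.compHom X ρ
  have hpre : MulAction.IsPretransitive (Perm (Fin 5)) X := ⟨fun x y => htr x y⟩
  have hstab : ∀ x : X, Nat.card (MulAction.stabilizer (Perm (Fin 5)) x) = 20 := by
    intro x
    have h1 := MulAction.index_stabilizer_of_transitive (Perm (Fin 5)) x
    have h2 := (MulAction.stabilizer (Perm (Fin 5)) x).card_mul_index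
    rw [h1, hX, card_perm_fin5] at h2
    omega
  have hsub : ∀ x : X, Subsingleton (Sylow 5 (MulAction.stabilizer (Perm (Fin 5)) x)) := by
    intro x
    have Q : Sylow 5 (MulAction.stabilizer (Perm (Fin 5)) x) := default
    have hQ : Nat.card Q = 5 := sylow5_card_eq (m := 4) (by rw [hstab x]) (by norm_num) Q
    have h1 : Nat.card (Sylow 5 (MulAction.stabilizer (Perm (Fin 5)) x)) ≡ 1 [MOD 5] :=
      card_sylow_modEq_one 5 _
    have h2 := Q.card_dvd_index
    have hidx : (Q : Subgroup (MulAction.stabilizer (Perm (Fin 5)) x)).index = 4 := by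
      have h6 := (Q : Subgroup (MulAction.stabilizer (Perm (Fin 5)) x)).card_mul_index
      rw [hstab x] at h6
      have hQ' : Nat.card (Q : Subgroup (MulAction.stabilizer (Perm (Fin 5)) x)) = 5 := hQ
      rw [hQ'] at h6
      omega
    rw [hidx] at h2
    have h3 := Nat.le_of_dvd (by norm_num) h2
    have h4 : Nat.card (Sylow 5 (MulAction.stabilizer (Perm (Fin 5)) x)) % 5 = 1 := h1
    have h5 : Nat.card (Sylow 5 (MulAction.stabilizer (Perm (Fin 5)) x)) = 1 := by omega
    exact (Nat.card_eq_one_iff_unique.mp h5).1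
  have hexP : ∀ x : X, ∃ P : Sylow 5 (Perm (Fin 5)),
      (P : Subgroup (Perm (Fin 5))) ≤ MulAction.stabilizer (Perm (Fin 5)) x := by
    intro x
    have Q : Sylow 5 (MulAction.stabilizer (Perm (Fin 5)) x) := default
    have hQ : Nat.card Q = 5 := sylow5_card_eq (m := 4) (by rw [hstab x]) (by norm_num) Q
    refine ⟨Sylow.ofCard ((Q : Subgroup (MulAction.stabilizer (Perm (Fin 5)) x)).map
      (Subgroup.subtype _)) ?_, ?_⟩
    · rw [Subgroup.card_map_of_injective (Subgroup.subtype_injective _), card_perm_fin5,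
        factorization_120_5, pow_one]
      exact hQ
    · rw [Sylow.coe_ofCard]
      exact Subgroup.map_subtype_le _
  choose F hF using hexP
  have huniq : ∀ (x : X) (P : Sylow 5 (Perm (Fin 5))),
      (P : Subgroup (Perm (Fin 5))) ≤ MulAction.stabilizer (Perm (Fin 5)) x → P = F x := by
    intro x P hP
    have h1 := (hsub x).elim (P.subtype hP) ((F x).subtype (hF x))
    exact Sylow.subtype_injective h1
  have hequiv : ∀ g x, F (ρ g x) = g • F x := by
    intro g x
    symm
    apply huniq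
    intro h hh
    rw [Sylow.coe_subgroup_smul, Subgroup.mem_pointwise_smul_iff_inv_smul_mem] at hh
    have h1 := hF x hh
    rw [MulAction.mem_stabilizer_iff] at h1 ⊢
    have h2 : (MulAut.conj g)⁻¹ • h = g⁻¹ * h * g := by
      rw [← map_inv, MulAut.smul_def, MulAut.conj_apply, inv_inv]
    rw [h2] at h1
    change h • (g • x) = g • x
    have h3 : (g⁻¹ * h * g) • x = x := h1
    rw [mul_smul, mul_smul] at h3
    have h4 := congrArg (fun y => g • y) h3
    simpa using h4
  have hsurj : Function.Surjective F := by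
    intro P
    obtain ⟨x₀⟩ : Nonempty X := (Nat.card_pos_iff.mp (by omega)).1
    obtain ⟨g, hg⟩ := MulAction.exists_smul_eq (Perm (Fin 5)) (F x₀) P
    exact ⟨ρ g x₀, by rw [hequiv, hg]⟩
  have hbij : Function.Bijective F :=
    hsurj.bijective_of_nat_card_le (by rw [hX, card_sylow5_perm5])
  exact ⟨Equiv.ofBijective F hbij, hequiv⟩

/-- The conjugation action of `S₅` on its six Sylow 5-subgroups, as a homomorphism. -/
noncomputable def sylHom : Perm (Fin 5) →* Perm (Sylow 5 (Perm (Fin 5))) :=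
  MulAction.toPermHom (Perm (Fin 5)) (Sylow 5 (Perm (Fin 5)))

theorem sylHom_apply (g : Perm (Fin 5)) (P : Sylow 5 (Perm (Fin 5))) : sylHom g P = g • P := rfl

theorem sylHom_injective : Function.Injective sylHom := by
  rw [← MonoidHom.ker_eq_bot_iff]
  by_contra hne
  have hnt : Nontrivial sylHom.ker := (Subgroup.nontrivial_iff_ne_bot _).mpr hne
  have hle := Equiv.Perm.alternatingGroup_le_of_normal (α := Fin 5) (by simp) hnt
  have P : Sylow 5 (Perm (Fin 5)) := default
  have h1 : alternatingGroup (Fin 5) ≤ MulAction.stabilizer (Perm (Fin 5)) P := by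
    intro g hg
    have h2 := hle hg
    rw [MonoidHom.mem_ker] at h2
    rw [MulAction.mem_stabilizer_iff]
    have h3 := congrArg (fun σ => σ P) h2
    exact h3
  have h3 := Subgroup.index_dvd_of_le h1
  rw [alternatingGroup.index_eq_two, MulAction.index_stabilizer_of_transitive,
    card_sylow5_perm5] at h3
  omega

/-- The exotic embedding of `S₅` in the symmetric group of a 6-element set `Ω`,
depending on a bijection of `Ω` with the set of Sylow 5-subgroups of `S₅`. -/
noncomputable def exoticHom {Ω : Type*} (e₀ : Sylow 5 (Perm (Fin 5)) ≃ Ω) :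
    Perm (Fin 5) →* Perm Ω :=
  e₀.permCongrHom.toMonoidHom.comp sylHom

theorem exoticHom_apply {Ω : Type*} (e₀ : Sylow 5 (Perm (Fin 5)) ≃ Ω) (g : Perm (Fin 5)) (ω : Ω) :
    exoticHom e₀ g ω = e₀ (g • e₀.symm ω) := rfl

theorem exoticHom_injective {Ω : Type*} (e₀ : Sylow 5 (Perm (Fin 5)) ≃ Ω) :
    Function.Injective (exoticHom e₀) :=
  e₀.permCongrHom.injective.comp sylHom_injective

/-- The exotic subgroup `S₅` of the symmetric group on six points. -/
noncomputable def exotic {Ω : Type*} (e₀ : Sylow 5 (Perm (Fin 5)) ≃ Ω) : Subgroup (Perm Ω) :=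
  (exoticHom e₀).range

theorem exotic_transitive {Ω : Type*} (e₀ : Sylow 5 (Perm (Fin 5)) ≃ Ω) (ω ω' : Ω) :
    ∃ h ∈ exotic e₀, h ω = ω' := by
  obtain ⟨g, hg⟩ := MulAction.exists_smul_eq (Perm (Fin 5)) (e₀.symm ω) (e₀.symm ω')
  refine ⟨exoticHom e₀ g, ⟨g, rfl⟩, ?_⟩
  rw [exoticHom_apply, hg, Equiv.apply_symm_apply]

theorem card_of_range {G K : Type*} [Group G] [Group K] (ρ : G →* K) (hρ : Function.Injective ρ) :
    Nat.card ρ.range = Nat.card G :=
  Nat.card_congr (MonoidHom.ofInjective hρ).toEquiv.symm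

theorem card_perm_six {Ω : Type*} [Fintype Ω] [DecidableEq Ω] (h6 : Fintype.card Ω = 6) :
    Nat.card (Perm Ω) = 720 := by
  rw [Nat.card_perm, Nat.card_eq_fintype_card, h6]; rfl

theorem index_of_range {Ω : Type*} [Fintype Ω] [DecidableEq Ω] (h6 : Fintype.card Ω = 6)
    (ρ : Perm (Fin 5) →* Perm Ω) (hρ : Function.Injective ρ) : ρ.range.index = 6 := by
  have h1 := ρ.range.card_mul_index
  rw [card_of_range ρ hρ, card_perm_fin5, card_perm_six h6] at h1
  omega

theorem exotic_index {Ω : Type*} [Fintype Ω] [DecidableEq Ω] (h6 : Fintype.card Ω = 6)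
    (e₀ : Sylow 5 (Perm (Fin 5)) ≃ Ω) : (exotic e₀).index = 6 :=
  index_of_range h6 _ (exoticHom_injective e₀)

theorem eq_of_le_of_index_eq {G : Type*} [Group G] [Finite G] {H K : Subgroup G} (hle : H ≤ K)
    (h : H.index = K.index) : H = K := by
  apply Subgroup.eq_of_le_of_card_ge hle
  have h1 := H.card_mul_index
  have h2 := K.card_mul_index
  rw [h] at h1
  have h3 : K.index ≠ 0 := Subgroup.index_ne_zero_of_finite
  have h4 : Nat.card H * K.index = Nat.card K * K.index := h1.trans h2.symm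
  exact (Nat.eq_of_mul_eq_mul_right (Nat.pos_of_ne_zero h3) h4).ge

theorem exists_rho {Ω : Type*} [Fintype Ω] [DecidableEq Ω] (h6 : Fintype.card Ω = 6)
    (H : Subgroup (Perm Ω)) (hH : H.index = 6) :
    ∃ ρ : Perm (Fin 5) →* Perm Ω, Function.Injective ρ ∧ ρ.range = H := by
  classical
  have hQ : Nat.card (Perm Ω ⧸ H) = 6 := hH
  have hfinQ : Finite (Perm Ω ⧸ H) := Nat.finite_of_card_ne_zero (by omega)
  have hφinj : Function.Injective (MulAction.toPermHom (Perm Ω) (Perm Ω ⧸ H)) := by
    rw [← MonoidHom.ker_eq_bot_iff]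
    by_contra hne
    have hker : (MulAction.toPermHom (Perm Ω) (Perm Ω ⧸ H)).ker = H.normalCore :=
      (Subgroup.normalCore_eq_ker H).symm
    have hnt : Nontrivial H.normalCore := by
      rw [← hker]
      exact (Subgroup.nontrivial_iff_ne_bot _).mpr hne
    have hle := (Equiv.Perm.alternatingGroup_le_of_normal (α := Ω)
      (by rw [Nat.card_eq_fintype_card, h6]; norm_num) hnt).trans H.normalCore_le
    have hd := Subgroup.index_dvd_of_le hle
    have : Nontrivial Ω := Fintype.one_lt_card_iff_nontrivial.mp (by omega)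
    rw [alternatingGroup.index_eq_two, hH] at hd
    omega
  have hφbij : Function.Bijective (MulAction.toPermHom (Perm Ω) (Perm Ω ⧸ H)) :=
    hφinj.bijective_of_nat_card_le (by
      rw [Nat.card_perm, Nat.card_perm, hQ, Nat.card_eq_fintype_card, h6])
  let Φ : Perm Ω ≃* Perm (Perm Ω ⧸ H) := MulEquiv.ofBijective _ hφbij
  have hΦ : ∀ g q, Φ g q = g • q := fun g q => rfl
  let q₀ : Perm Ω ⧸ H := ((1 : Perm Ω) : Perm Ω ⧸ H)
  have hmemH : ∀ g : Perm Ω, g ∈ H ↔ Φ g q₀ = q₀ := by
    intro g
    rw [hΦ, ← MulAction.mem_stabilizer_iff, MulAction.stabilizer_quotient]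
  have hcard : Nat.card {q : Perm Ω ⧸ H // q ≠ q₀} = 5 := by
    have h1 := Set.ncard_add_ncard_compl ({q₀} : Set (Perm Ω ⧸ H))
    rw [Set.ncard_singleton, hQ] at h1
    have h2 : Nat.card {q : Perm Ω ⧸ H // q ≠ q₀} = ({q₀}ᶜ : Set (Perm Ω ⧸ H)).ncard :=
      Nat.card_coe_set_eq ({q₀}ᶜ : Set (Perm Ω ⧸ H))
    omega
  obtain ⟨e⟩ : Nonempty (Fin 5 ≃ {q : Perm Ω ⧸ H // q ≠ q₀}) :=
    ⟨(Finite.equivFinOfCardEq hcard).symm⟩
  refine ⟨Φ.symm.toMonoidHom.comp ((Equiv.Perm.ofSubtype (p := fun q : Perm Ω ⧸ H => q ≠ q₀)).comp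
    e.permCongrHom.toMonoidHom), ?_, ?_⟩
  · exact Φ.symm.injective.comp (Equiv.Perm.ofSubtype_injective.comp e.permCongrHom.injective)
  · ext g
    constructor
    · rintro ⟨s, rfl⟩
      rw [hmemH]
      simp only [MonoidHom.coe_comp, Function.comp_apply, MulEquiv.coe_toMonoidHom,
        MulEquiv.apply_symm_apply]
      exact Equiv.Perm.ofSubtype_apply_of_not_mem _ (by simp)
    · intro hg
      rw [hmemH] at hg
      have h₁ : ∀ x, (Φ g x ≠ q₀) ↔ (x ≠ q₀) := by
        intro x
        constructor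
        · intro hx hxq
          exact hx (hxq ▸ hg)
        · intro hx hxq
          exact hx ((Φ g).injective (hxq.trans hg.symm))
      have h₂ : ∀ x, Φ g x ≠ x → x ≠ q₀ := by
        intro x hx hxq
        exact hx (hxq ▸ hg)
      refine ⟨e.permCongrHom.symm ((Φ g).subtypePerm h₁), ?_⟩
      simp only [MonoidHom.coe_comp, Function.comp_apply, MulEquiv.coe_toMonoidHom,
        MulEquiv.apply_symm_apply]
      rw [Equiv.Perm.ofSubtype_subtypePerm h₁ h₂, MulEquiv.symm_apply_apply]

theorem classify {Ω : Type*} [Fintype Ω] [DecidableEq Ω] (h6 : Fintype.card Ω = 6)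
    (e₀ : Sylow 5 (Perm (Fin 5)) ≃ Ω) (H : Subgroup (Perm Ω)) (hH : H.index = 6) :
    (∃ a : Ω, H = MulAction.stabilizer (Perm Ω) a) ∨
    (∃ g : Perm Ω, (exotic e₀).map (MulAut.conj g).toMonoidHom = H) := by
  obtain ⟨ρ, hinj, hrange⟩ := exists_rho h6 H hH
  have hX : Nat.card Ω = 6 := by rw [Nat.card_eq_fintype_card, h6]
  rcases fixed_or_transitive hX ρ hinj with ⟨a, ha⟩ | htr
  · left
    refine ⟨a, ?_⟩
    have hle : H ≤ MulAction.stabilizer (Perm Ω) a := by
      rw [← hrange]
      rintro _ ⟨g, rfl⟩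
      exact ha g
    apply eq_of_le_of_index_eq hle
    rw [hH, MulAction.index_stabilizer_of_transitive, hX]
  · right
    obtain ⟨f, hf⟩ := exists_equivariant hX ρ htr
    refine ⟨(f.trans e₀ : Perm Ω)⁻¹, ?_⟩
    rw [← hrange, exotic, MonoidHom.map_range]
    congr 1
    ext g ω
    simp only [MonoidHom.coe_comp, MulEquiv.coe_toMonoidHom, Function.comp_apply,
      MulAut.conj_apply, inv_inv, Perm.coe_mul, exoticHom_apply]
    change (f.trans e₀).symm (e₀ (g • e₀.symm (e₀ (f ω)))) = ρ g ω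
    rw [Equiv.symm_apply_apply, ← hf]
    simp

end Cfsg.Agent.Lib.Helper98
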